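import Cfsg.Agent.H163.E65.TI
import Cfsg.Agent.H678.CCExact
import Cfsg.Agent.S0135

/-!
# S3650, task DICHO: the ordinary characters of a group with the Singer torus of `SL₃(125)` (helper174, for helper163)
-/

set_option autoImplicit false

namespace Cfsg.Agent.H174.E65

open Cfsg Cfsg.Agent.H163.E65 Cfsg.Agent.Characters Cfsg.Agent.Characters.CCBasic Cfsg.Agent.Characters.CCOrbit
  Cfsg.Agent.Characters.CCExceptional Cfsg.Agent.Characters.CCValues Cfsg.Agent.Characters.CCEstimates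
  Cfsg.Agent.H678.CCExact

universe u

theorem charDegree_dvd {G : Type*} [Group G] [Finite G] (χ : IrrCharacter G) :
    charDegree (χ : G → ℂ) ∣ Nat.card G := by
  have : Fintype G := Fintype.ofFinite G
  obtain ⟨χ, n, ρ, hρ, rfl⟩ := χ
  have h1 := Cfsg.Agent.S0135.result ρ
  have h2 : (charDegree ρ.character : ℂ) = ρ.character 1 :=
    H686.CharKit.charDegree_cast (Core.isIrr_isCharacter ⟨n, ρ, hρ, rfl⟩)
  rw [Representation.char_one] at h2
  have h3 : charDegree ρ.character = Module.finrank ℂ (Fin n → ℂ) := by exact_mod_cast h2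
  rw [h3]
  exact h1

/-- the arithmetic -/
theorem div_pos : ∀ b < 215, 15751 * b + 3 ∣ 125 ^ 3 * (125 ^ 2 - 1) * (125 ^ 3 - 1) →
    (15751 * b + 3 = 3 ∨ 15751 * b + 3 = 1937376) := by
  decide +kernel

theorem div_neg : ∀ b < 215, 15751 * (b + 1) - 3 ∣ 125 ^ 3 * (125 ^ 2 - 1) * (125 ^ 3 - 1) → False := by
  decide +kernel

theorem norm_irr {A : Type*} [Group A] [Finite A] (hc : ∀ a b : A, a * b = b * a) {θ : A → ℂ}
    (hθ : IsIrrCharacter A θ) (a : A) : ‖θ a‖ = 1 := by
  obtain ⟨f, rfl⟩ := exists_hom_of_comm hc hθ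
  have h1 : ((f a : ℂˣ) : ℂ) ^ Nat.card A = 1 := by
    rw [← Units.val_pow_eq_pow_val, ← map_pow, pow_card_eq_one', map_one, Units.val_one]
  exact Complex.norm_eq_one_of_pow_eq_one h1 Nat.card_pos.ne'

section

variable {H : Type u} [Group H] [Finite H] {T : Subgroup H}

omit [Finite H] in
theorem isCC (h : TI H T) : IsCC T where
  ne_bot := by
    intro h1
    have h2 := h.card
    rw [h1, Subgroup.card_bot] at h2
    omega
  cent := h.cent

omit [Finite H] in
theorem len_eq (h : TI H T) : len T = 3 := by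
  unfold len
  rw [h.norm, h.card]

open scoped Classical in
theorem dichotomy (h : TI H T) (h3 : ∀ χ : IrrCharacter H, charDegree (χ : H → ℂ) ≠ 3) (χ : IrrCharacter H) :
    (∃ c : ℤ, ∀ x ∈ T, x ≠ 1 → (χ : H → ℂ) x = c) ∨
      (charDegree (χ : H → ℂ) = 1937376 ∧ ∀ x ∈ T, x ≠ 1 → ‖(χ : H → ℂ) x‖ ≤ 3) := by
  have : Fintype H := Fintype.ofFinite H
  have : Fintype T := Fintype.ofFinite T
  have : Finite (IrrCharacter T) := Core.finite_irr
  have : Fintype (IrrCharacter T) := Fintype.ofFinite _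
  have : Finite (IrrCharacter H) := Core.finite_irr
  have : Fintype (IrrCharacter H) := Fintype.ofFinite _
  have : Fintype (NP T) := Fintype.ofFinite _
  have hA := isCC h
  obtain ⟨X⟩ := nonempty_exc hA
  have hlen := len_eq h
  have hcard := h.card
  have hs : (rng X).card = 5250 := by
    have h1 := card_rng_mul_len hA X
    rw [hlen, hcard] at h1
    omega
  obtain ⟨b, c, hb0, h1, hm⟩ := exists_data hA X (by rw [hs]; norm_num)
  -- the nonexceptional characters
  have hne : ∀ ψ : IrrCharacter H, ψ ∉ rng X → ∃ c : ℤ, ∀ a : T, a ≠ 1 → (ψ : H → ℂ) a = c := by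
    intro ψ hψ
    apply apply_eq_of_not_exceptional hA X
    intro l hl
    exact hψ ((mem_rng X ψ).2 ⟨l, hl.symm⟩)
  by_cases hχ : χ ∉ rng X
  · left
    obtain ⟨c, hc⟩ := hne χ hχ
    exact ⟨c, fun x hx hx1 => hc ⟨x, hx⟩ fun h => hx1 (congrArg Subtype.val h)⟩
  push Not at hχ
  right
  -- `c = 0`
  have hc0 : c = 0 := by
    have hf : ∀ ψ : IrrCharacter H, ∃ c : ℤ, ψ ∉ rng X → ∀ a : T, a ≠ 1 → (ψ : H → ℂ) a = c := by
      intro ψ
      by_cases hψ : ψ ∈ rng X
      · exact ⟨0, fun h => absurd hψ h⟩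
      · obtain ⟨c, hc⟩ := hne ψ hψ
        exact ⟨c, fun _ => hc⟩
    choose f hf using hf
    have h2 := sum_sq hA X h1 hm (by rw [hcard]; norm_num) f hf
    have h4 : 0 ≤ ∑ ψ ∈ Finset.univ.filter (fun ψ : IrrCharacter H => ψ ∉ rng X), f ψ ^ 2 :=
      Finset.sum_nonneg fun _ _ => sq_nonneg _
    rw [hs, hlen] at h2
    push_cast at h2
    have h5 : 5250 * c ^ 2 ≤ 3 + 2 * X.ε * c := by linarith
    rcases X.hε with he | he
    · rw [he] at h5
      nlinarith
    · rw [he] at h5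
      nlinarith
  obtain ⟨l, rfl⟩ := (mem_rng X χ).1 hχ
  have hdeg : ∀ l : NP T, (charDegree (X.E l : H → ℂ) : ℤ) = 15751 * b + X.ε * 3 := by
    intro l
    have h2 := degree_eq hA X h1 hm l
    rw [← H686.CharKit.charDegree_irr, hlen, hcard, hc0] at h2
    have h4 : (charDegree (X.E l : H → ℂ) : ℤ) = ((15751 : ℕ) : ℤ) * b + 0 + X.ε * ((3 : ℕ) : ℤ) := by
      exact_mod_cast h2
    push_cast at h4
    linarith
  refine ⟨?_, ?_⟩
  · have hord := h.ord
    have h2 := charDegree_dvd (X.E l)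
    rw [hord] at h2
    have h4 : 5250 * charDegree (X.E l : H → ℂ) ^ 2 ≤ 125 ^ 3 * (125 ^ 2 - 1) * (125 ^ 3 - 1) := by
      rw [← hord, ← H686.CharKit.sum_deg_sq]
      calc 5250 * charDegree (X.E l : H → ℂ) ^ 2 = ∑ ψ ∈ rng X, charDegree (ψ : H → ℂ) ^ 2 := by
            rw [Finset.sum_congr rfl (g := fun _ => charDegree (X.E l : H → ℂ) ^ 2), Finset.sum_const, hs, smul_eq_mul]
            intro ψ hψ
            obtain ⟨m, rfl⟩ := (mem_rng X ψ).1 hψ
            have h5 := hdeg l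
            have h6 := hdeg m
            have h7 : charDegree (X.E m : H → ℂ) = charDegree (X.E l : H → ℂ) := by
              rw [← h5] at h6
              exact_mod_cast h6
            rw [h7]
        _ ≤ _ := Finset.sum_le_sum_of_subset (Finset.subset_univ _)
    have h5 : charDegree (X.E l : H → ℂ) ≤ 3369352 := by
      by_contra h6
      push Not at h6
      have h7 : 3369353 ^ 2 ≤ charDegree (X.E l : H → ℂ) ^ 2 := Nat.pow_le_pow_left h6 2
      have h8 := (Nat.mul_le_mul_left 5250 h7).trans h4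
      norm_num at h8
    have h6 := hdeg l
    have hpos := H686.CharKit.charDegree_pos (X.E l)
    have h7 := h3 (X.E l)
    obtain ⟨b, rfl⟩ := Int.eq_ofNat_of_zero_le hb0
    generalize charDegree (X.E l : H → ℂ) = f at *
    rcases X.hε with he | he
    · rw [he] at h6
      have h8 : f = 15751 * b + 3 := by omega
      have h9 := div_pos b (by omega) (h8 ▸ h2)
      rw [← h8] at h9
      exact h9.resolve_left h7
    · rw [he] at h6
      have hb : b ≠ 0 := by rintro rfl; omega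
      obtain ⟨b', rfl⟩ := Nat.exists_eq_succ_of_ne_zero hb
      have h8 : f = 15751 * (b' + 1) - 3 := by omega
      exact (div_neg b' (by omega) (h8 ▸ h2)).elim
  · intro x hx hx1
    have ha : (⟨x, hx⟩ : T) ≠ 1 := fun h => hx1 (congrArg Subtype.val h)
    have h2 := restrict_eq_sum hA (X.E l) ⟨x, hx⟩
    rw [sum_irr_eq, h1 l, hc0] at h2
    have h4 : ∑ m : NP T, (mult (X.E l) m.1 : ℂ) * (m.1 : T → ℂ) ⟨x, hx⟩ =
        (b : ℂ) * ∑ m : NP T, (m.1 : T → ℂ) ⟨x, hx⟩ +
          (X.ε : ℂ) * ∑ m ∈ Finset.univ.filter (fun m : NP T => Rel T (l.1 : T → ℂ) (m.1 : T → ℂ)),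
            (m.1 : T → ℂ) ⟨x, hx⟩ := by
      rw [Finset.sum_filter, Finset.mul_sum, Finset.mul_sum, ← Finset.sum_add_distrib]
      refine Finset.sum_congr rfl fun m _ => ?_
      rw [hm l m]
      push_cast
      split_ifs <;> ring
    rw [h4, sum_np_apply hA ha, coe_one] at h2
    have h5 : (X.E l : H → ℂ) x = (X.ε : ℂ) *
        ∑ m ∈ Finset.univ.filter (fun m : NP T => Rel T (l.1 : T → ℂ) (m.1 : T → ℂ)), (m.1 : T → ℂ) ⟨x, hx⟩ := by
      rw [h2]
      simp
    rw [h5, norm_mul]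
    have h6 : ‖(X.ε : ℂ)‖ = 1 := by
      rcases X.hε with he | he <;> rw [he] <;> simp
    rw [h6, one_mul]
    refine (norm_sum_le _ _).trans ?_
    calc ∑ m ∈ Finset.univ.filter (fun m : NP T => Rel T (l.1 : T → ℂ) (m.1 : T → ℂ)), ‖(m.1 : T → ℂ) ⟨x, hx⟩‖
        ≤ ∑ m ∈ Finset.univ.filter (fun m : NP T => Rel T (l.1 : T → ℂ) (m.1 : T → ℂ)), (1 : ℝ) := by
          refine Finset.sum_le_sum fun m _ => ?_
          exact (norm_irr (comm_coe hA) m.1.2 _).le
      _ = 3 := by
          rw [Finset.sum_const, card_np_rel hA l, hlen]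
          norm_num

end

end Cfsg.Agent.H174.E65
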