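import Cfsg.Agent.H174.E65.Dicho
import Cfsg.Agent.S0249

/-!
# S3650, task DICHO: `SL₃(125)` has no irreducible character of degree 3 (helper174, for helper163)
-/

set_option autoImplicit false

namespace Cfsg.Agent.H174.E65

open Cfsg Cfsg.Agent.H163.E65 Cfsg.Agent.Characters Cfsg.Agent.H686.CharKit
open scoped MatrixGroups

universe u

/-- commutators of a `p`-subgroup lie in the kernel of every irreducible character of degree less than `p` -/
theorem comm_mem_chKer {G : Type*} [Group G] [Finite G] {p : ℕ} (hp : p.Prime) (χ : IrrCharacter G)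
    (hd : charDegree (χ : G → ℂ) < p) {Q : Subgroup G} (hQ : IsPGroup p Q) {a b : G} (ha : a ∈ Q) (hb : b ∈ Q) :
    a * b * a⁻¹ * b⁻¹ ∈ chKer χ := by
  have : Fact p.Prime := ⟨hp⟩
  have : Finite (IrrCharacter Q) := Core.finite_irr
  have : Fintype (IrrCharacter Q) := Fintype.ofFinite _
  have hχ := Core.isCharacter_comp Q.subtype (Core.isIrr_isCharacter χ.2)
  obtain ⟨m, hm⟩ := Core.exists_nat_comb hχ
  -- the constituents are linear
  have h1 : ((charDegree (χ : G → ℂ) : ℕ) : ℂ) = ((∑ ψ : IrrCharacter Q, m ψ * charDegree (ψ : Q → ℂ) : ℕ) : ℂ) := by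
    rw [charDegree_irr χ]
    have h2 := congrFun hm 1
    have h3 : ((χ : G → ℂ) ∘ Q.subtype) 1 = (χ : G → ℂ) 1 := by simp
    rw [← h3]
    refine h2.trans ?_
    rw [Finset.sum_apply]
    push_cast
    refine Finset.sum_congr rfl fun ψ _ => ?_
    rw [Pi.smul_apply, nsmul_eq_mul, charDegree_irr]
  have h1' : charDegree (χ : G → ℂ) = ∑ ψ : IrrCharacter Q, m ψ * charDegree (ψ : Q → ℂ) := by exact_mod_cast h1
  have h2 : ∀ ψ : IrrCharacter Q, m ψ ≠ 0 → charDegree (ψ : Q → ℂ) = 1 := by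
    intro ψ hψ
    have h3 : charDegree (ψ : Q → ℂ) ≤ charDegree (χ : G → ℂ) := by
      rw [h1']
      calc charDegree (ψ : Q → ℂ) ≤ m ψ * charDegree (ψ : Q → ℂ) :=
            Nat.le_mul_of_pos_left _ (Nat.pos_of_ne_zero hψ)
        _ ≤ _ := Finset.single_le_sum (f := fun ψ : IrrCharacter Q => m ψ * charDegree (ψ : Q → ℂ))
            (fun _ _ => Nat.zero_le _) (Finset.mem_univ ψ)
    have h4 := charDegree_dvd ψ
    obtain ⟨k, hk⟩ := IsPGroup.iff_card.1 hQ
    rw [hk] at h4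
    obtain ⟨j, -, hj⟩ := (Nat.dvd_prime_pow hp).1 h4
    rcases Nat.eq_zero_or_pos j with rfl | hj0
    · rw [hj, pow_zero]
    · exfalso
      have h5 : p ≤ p ^ j := Nat.le_self_pow hj0.ne' p
      omega
  rw [mem_chKer]
  set q : Q := ⟨a, ha⟩ * ⟨b, hb⟩ * ⟨a, ha⟩⁻¹ * ⟨b, hb⟩⁻¹ with hq
  have h3 : ∀ ψ : IrrCharacter Q, m ψ • (ψ : Q → ℂ) q = m ψ • (ψ : Q → ℂ) 1 := by
    intro ψ
    by_cases hψ : m ψ = 0
    · rw [hψ, zero_smul, zero_smul]
    · have h4 : (ψ : Q → ℂ) 1 = 1 := (charDegree_eq_one_iff ψ).1 (h2 ψ hψ)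
      obtain ⟨f, hf⟩ := Linear.exists_hom_of_isIrrCharacter ψ.2 h4
      rw [hf]
      congr 1
      simp only [hq, map_mul, map_inv, map_one]
      rw [mul_comm (f ⟨a, ha⟩) (f ⟨b, hb⟩), mul_assoc (f ⟨b, hb⟩), mul_inv_cancel, mul_one, mul_inv_cancel]
  have h4 : ∀ x : Q, (χ : G → ℂ) x = ∑ ψ : IrrCharacter Q, m ψ • (ψ : Q → ℂ) x := by
    intro x
    have h5 := congrFun hm x
    rw [Finset.sum_apply] at h5
    exact h5
  have h5 := h4 q
  rw [Finset.sum_congr rfl fun ψ _ => h3 ψ, ← h4 1] at h5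
  exact h5

section SL

variable {K : Type u} [Field K]

/-- the unitriangular matrices -/
def u (a b c : K) : SL(3, K) := ⟨!![1, a, c; 0, 1, b; 0, 0, 1], by simp [Matrix.det_fin_three]⟩

theorem u_mul (a b c a' b' c' : K) : u a b c * u a' b' c' = u (a + a') (b + b') (c + c' + a * b') := by
  apply Subtype.ext
  show (!![1, a, c; 0, 1, b; 0, 0, 1] : Matrix (Fin 3) (Fin 3) K) * !![1, a', c'; 0, 1, b'; 0, 0, 1] =
    !![1, a + a', c + c' + a * b'; 0, 1, b + b'; 0, 0, 1]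
  ext i j
  fin_cases i <;> fin_cases j <;> simp [Matrix.mul_apply, Fin.sum_univ_three, add_comm, add_assoc]

theorem u_zero : u (0 : K) 0 0 = 1 := by
  apply Subtype.ext
  ext i j
  fin_cases i <;> fin_cases j <;> simp [u]

/-- the unitriangular group -/
def UU : Subgroup SL(3, K) where
  carrier := {g | ∃ a b c : K, g = u a b c}
  one_mem' := ⟨0, 0, 0, u_zero.symm⟩
  mul_mem' := by
    rintro _ _ ⟨a, b, c, rfl⟩ ⟨a', b', c', rfl⟩
    exact ⟨_, _, _, u_mul _ _ _ _ _ _⟩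
  inv_mem' := by
    rintro _ ⟨a, b, c, rfl⟩
    refine ⟨-a, -b, a * b - c, ?_⟩
    rw [inv_eq_iff_mul_eq_one, u_mul, ← u_zero]
    congr 1 <;> ring

theorem u_pow_five (h5 : (5 : K) = 0) (a b c : K) : u a b c ^ 5 = 1 := by
  have e : u a b c ^ 5 = u a b c * u a b c * u a b c * u a b c * u a b c := by
    rw [pow_succ, pow_succ, pow_succ, pow_succ, pow_one]
  rw [e, u_mul, u_mul, u_mul, u_mul, ← u_zero]
  congr 1
  · linear_combination a * h5
  · linear_combination b * h5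
  · linear_combination (c + 2 * a * b) * h5

theorem isPGroup_UU (h5 : (5 : K) = 0) : IsPGroup 5 (UU (K := K)) := by
  rintro ⟨_, a, b, c, rfl⟩
  refine ⟨1, Subtype.ext ?_⟩
  rw [pow_one]
  exact u_pow_five h5 a b c

/-- `SL₃(125)` has no irreducible character of degree 3. -/
theorem three [Fintype K] (hK : Fintype.card K = 125) (χ : IrrCharacter SL(3, K)) :
    charDegree (χ : SL(3, K) → ℂ) ≠ 3 := by
  intro hd
  have h5 : (5 : K) = 0 := by
    have h1 : ((Fintype.card K : ℕ) : K) = 0 := Nat.cast_card_eq_zero K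
    rw [hK] at h1
    have h2 : (5 : K) ^ 3 = 0 := by
      have : ((125 : ℕ) : K) = (5 : K) ^ 3 := by norm_num
      rw [← this, h1]
    exact pow_eq_zero_iff (by norm_num) |>.1 h2
  have hfin : Finite SL(3, K) := inferInstance
  have h1 : (1 : K) ≠ 0 := one_ne_zero
  -- the commutator
  have hcomm := comm_mem_chKer (p := 5) (by norm_num) χ (by omega) (isPGroup_UU h5) (a := u 1 0 0) (b := u 0 1 0)
    ⟨_, _, _, rfl⟩ ⟨_, _, _, rfl⟩
  have hc : u (1 : K) 0 0 * u 0 1 0 * (u 1 0 0)⁻¹ * (u 0 1 0)⁻¹ = u 0 0 1 := by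
    rw [mul_inv_eq_iff_eq_mul, mul_inv_eq_iff_eq_mul, u_mul, u_mul, u_mul]
    congr 1 <;> ring
  rw [hc] at hcomm
  -- it is not central
  have hnc : u (0 : K) 0 1 ∉ Subgroup.center SL(3, K) := by
    intro h2
    rw [Subgroup.mem_center_iff] at h2
    let l : SL(3, K) := ⟨!![1, 0, 0; 0, 1, 0; 1, 0, 1], by simp [Matrix.det_fin_three]⟩
    have h3 := congrArg (fun g : SL(3, K) => (g : Matrix (Fin 3) (Fin 3) K) 0 0) (h2 l)
    have h4 : ((!![1, 0, 0; 0, 1, 0; 1, 0, 1] : Matrix (Fin 3) (Fin 3) K) *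
        (!![1, 0, 1; 0, 1, 0; 0, 0, 1] : Matrix (Fin 3) (Fin 3) K) : Matrix (Fin 3) (Fin 3) K) 0 0 =
      ((!![1, 0, 1; 0, 1, 0; 0, 0, 1] : Matrix (Fin 3) (Fin 3) K) *
        (!![1, 0, 0; 0, 1, 0; 1, 0, 1] : Matrix (Fin 3) (Fin 3) K) : Matrix (Fin 3) (Fin 3) K) 0 0 := h3
    simp [Matrix.mul_apply, Fin.sum_univ_three] at h4
  have hsimple : IsSimpleGroup (Matrix.ProjectiveSpecialLinearGroup (Fin 3) K) := Cfsg.Agent.S0249.result 3 le_rfl
  let π : SL(3, K) →* Matrix.ProjectiveSpecialLinearGroup (Fin 3) K := QuotientGroup.mk' _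
  have hπ : Function.Surjective π := QuotientGroup.mk'_surjective _
  have hker : ∀ g : SL(3, K), π g = 1 ↔ g ∈ Subgroup.center SL(3, K) := fun g => QuotientGroup.eq_one_iff g
  set N := chKer χ with hN
  have hNn : (N.map π).Normal := Subgroup.Normal.map (chKer_normal χ) π hπ
  have htop : N.map π = ⊤ := by
    rcases hsimple.eq_bot_or_eq_top_of_normal _ hNn with h | h
    · exfalso
      apply hnc
      rw [← hker]
      have h2 : π (u 0 0 1) ∈ N.map π := ⟨_, hcomm, rfl⟩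
      rwa [h, Subgroup.mem_bot] at h2
    · exact h
  have hrep : ∀ g : SL(3, K), ∃ n ∈ N, ∃ z ∈ Subgroup.center SL(3, K), g = n * z := by
    intro g
    have h2 : π g ∈ N.map π := by rw [htop]; trivial
    obtain ⟨n, hn, hng⟩ := h2
    refine ⟨n, hn, n⁻¹ * g, ?_, by group⟩
    rw [← hker, map_mul, map_inv, hng, inv_mul_cancel]
  -- the quotient is abelian
  obtain ⟨ψ, hψ⟩ := exists_infl N χ le_rfl
  have hab : ∀ a b : SL(3, K) ⧸ N, a * b = b * a := by
    intro a b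
    obtain ⟨g, rfl⟩ := QuotientGroup.mk_surjective a
    obtain ⟨h, rfl⟩ := QuotientGroup.mk_surjective b
    obtain ⟨n, hn, z, hz, rfl⟩ := hrep g
    have h2 : ((n * z : SL(3, K)) : SL(3, K) ⧸ N) = (z : SL(3, K) ⧸ N) := by
      rw [QuotientGroup.mk_mul, (QuotientGroup.eq_one_iff n).2 hn, one_mul]
    rw [h2, ← QuotientGroup.mk_mul, ← QuotientGroup.mk_mul, Subgroup.mem_center_iff.1 hz h]
  have h2 : (ψ : SL(3, K) ⧸ N → ℂ) 1 = 1 := CCBasic.irr_apply_one_of_comm hab ψ.2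
  have h3 : (χ : SL(3, K) → ℂ) 1 = 1 := by
    rw [← hψ, infl_apply]
    exact h2
  have h4 := (charDegree_eq_one_iff χ).2 h3
  omega

end SL

end Cfsg.Agent.H174.E65
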